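import Mathlib

/-!
Groups with a normal Sylow subgroup and cyclic quotient, as subgroups.
-/

set_option autoImplicit false
set_option linter.style.haveILetI false

namespace Cfsg.Agent.PByCyclic

open Subgroup

variable {G : Type*} [Group G] [Finite G]

/-- A cyclic quotient by a normal Hall subgroup is covered by a cyclic complement. -/
theorem exists_complement_gen (S : Subgroup G) [S.Normal] (hcop : (Nat.card S).Coprime S.index)
    (hq : IsCyclic (G ⧸ S)) : ∃ y : G, orderOf y = S.index ∧ S ⊔ zpowers y = ⊤ := by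
  obtain ⟨q, hgen⟩ := hq.exists_generator
  obtain ⟨h, rfl⟩ := QuotientGroup.mk_surjective q
  have hm : orderOf (h : G ⧸ S) = S.index := by
    rw [index_eq_card]
    exact orderOf_eq_card_of_forall_mem_zpowers hgen
  set y := h ^ Nat.card S with hy
  have hym : orderOf (y : G ⧸ S) = S.index := by
    rw [hy, QuotientGroup.mk_pow, ← hm]
    exact Nat.Coprime.orderOf_pow (by rw [hm]; exact hcop.symm)
  refine ⟨y, Nat.dvd_antisymm ?_ ?_, ?_⟩
  · refine orderOf_dvd_of_pow_eq_one ?_
    rw [hy, ← pow_mul, card_mul_index, pow_card_eq_one']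
  · rw [← hym]
    exact orderOf_map_dvd (QuotientGroup.mk' S) y
  · have htop : zpowers (y : G ⧸ S) = ⊤ :=
      eq_top_of_card_eq _ (by rw [Nat.card_zpowers, hym, index_eq_card])
    have h2 : (S ⊔ zpowers y).map (QuotientGroup.mk' S) = ⊤ := by
      rw [Subgroup.map_sup, QuotientGroup.map_mk'_self, bot_sup_eq, MonoidHom.map_zpowers]
      exact htop
    have h3 := congrArg (Subgroup.comap (QuotientGroup.mk' S)) h2
    rwa [comap_map_eq, QuotientGroup.ker_mk', comap_top, sup_eq_left.2 le_sup_left] at h3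

/-- A cyclic normal Hall subgroup centralized by a cyclic complement gives a cyclic group. -/
theorem isCyclic_of_centralize (S : Subgroup G) (hS : IsCyclic S)
    (hcop : (Nat.card S).Coprime S.index) {y : G} (hy : orderOf y = S.index)
    (hc : y ∈ centralizer (S : Set G)) : IsCyclic G := by
  obtain ⟨a, ha⟩ := hS.exists_ofOrder_eq_natCard
  have hca : Commute (a : G) y := mem_centralizer_iff.1 hc a a.2
  refine isCyclic_of_orderOf_eq_card ((a : G) * y) ?_
  rw [hca.orderOf_mul_eq_mul_orderOf_of_coprime (by rw [orderOf_coe, ha, hy]; exact hcop),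
    orderOf_coe, ha, hy, card_mul_index]

/-- An element of odd order normalizing a cyclic `2`-group centralizes it. -/
theorem centralize_cyclic_two {a y : G} {k : ℕ} (ha : orderOf a = 2 ^ k) (hy : Odd (orderOf y))
    (hn : y ∈ normalizer ((zpowers a : Subgroup G) : Set G)) : Commute a y := by
  set A := zpowers a
  let φ := A.normalizerMonoidHom ⟨y, hn⟩
  have hcard : Nat.card (MulAut A) = Nat.totient (2 ^ k) := by
    rw [IsCyclic.card_mulAut, Nat.card_zpowers, ha]
  have hφ : φ = 1 := by
    rw [← orderOf_eq_one_iff]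
    refine Nat.eq_one_of_dvd_coprimes (a := orderOf y) (b := Nat.card (MulAut A)) ?_ ?_
      (orderOf_dvd_natCard φ)
    · rw [hcard]
      rcases Nat.eq_zero_or_pos k with rfl | hk
      · simp
      · rw [Nat.totient_prime_pow Nat.prime_two hk, show (2 : ℕ) - 1 = 1 from rfl, mul_one]
        exact Nat.Coprime.pow_right _ (Nat.coprime_two_right.2 hy)
    · exact (orderOf_map_dvd A.normalizerMonoidHom _).trans (Subgroup.orderOf_mk y hn).dvd
  have h := congrArg Subtype.val (DFunLike.congr_fun hφ ⟨a, mem_zpowers a⟩)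
  exact (mul_inv_eq_iff_eq_mul.1 h).symm

/-- The hypothesis on subgroups applies to `S ⊔ ⟨y⟩`. -/
theorem apply_hyp {p : ℕ} [hp : Fact p.Prime] {X : Subgroup G → Prop}
    (hyp : ∀ H : Subgroup G, (∀ S : Sylow p ↥H, (S : Subgroup ↥H).Normal) →
      (∀ (S : Sylow p ↥H) [(S : Subgroup ↥H).Normal], IsCyclic (↥H ⧸ (S : Subgroup ↥H))) → X H)
    (S : Subgroup G) (hS : IsPGroup p S) (y : G) (hy : y ∈ normalizer (S : Set G))
    (hyo : Nat.Coprime (orderOf y) p) : X (S ⊔ zpowers y) := by
  set H := S ⊔ zpowers y with hH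
  have hSH : S ≤ H := le_sup_left
  have hn : H ≤ normalizer (S : Set G) := sup_le le_normalizer (zpowers_le.2 hy)
  set S' := S.subgroupOf H with hS'
  haveI hS'n : S'.Normal := normal_subgroupOf_of_le_normalizer hn
  let y' : H := ⟨y, mem_sup_right (mem_zpowers y)⟩
  have hgen : ∀ q : H ⧸ S', q ∈ zpowers (y' : H ⧸ S') := by
    intro q
    obtain ⟨⟨g, hg⟩, rfl⟩ := QuotientGroup.mk_surjective q
    have hg' : g ∈ (↑(S ⊔ zpowers y) : Set G) := hg
    rw [coe_mul_of_right_le_normalizer_left S (zpowers y) (zpowers_le.2 hy)] at hg'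
    obtain ⟨s, hs, z, ⟨i, rfl⟩, rfl⟩ := hg'
    refine ⟨i, ?_⟩
    show (y' : H ⧸ S') ^ i = _
    rw [← QuotientGroup.mk_zpow, QuotientGroup.eq, mem_subgroupOf]
    simp only [coe_mul, InvMemClass.coe_inv, coe_zpow, y']
    have hz : y ^ i ∈ normalizer (S : Set G) := zpow_mem hy i
    have := (mem_normalizer_iff.1 (inv_mem hz) s).1 hs
    simpa [mul_assoc] using this
  haveI hcyc : IsCyclic (H ⧸ S') := ⟨⟨_, hgen⟩⟩
  have hidx : Nat.Coprime S'.index p := by
    rw [index_eq_card, ← orderOf_eq_card_of_forall_mem_zpowers hgen]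
    exact Nat.Coprime.coprime_dvd_left ((orderOf_map_dvd (QuotientGroup.mk' S') y').trans
      (Subgroup.orderOf_mk y _).dvd) hyo
  have hT : ∀ T : Sylow p H, (T : Subgroup H) = S' := by
    intro T
    have h1 : (T : Subgroup H).map (QuotientGroup.mk' S') = ⊥ := by
      obtain ⟨k, hk⟩ := IsPGroup.iff_card.1 (T.2.map (QuotientGroup.mk' S'))
      rw [eq_bot_iff_card]
      refine Nat.eq_one_of_dvd_coprimes (hidx.pow_right k) ?_ hk.dvd
      rw [index_eq_card]
      exact card_subgroup_dvd_card _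
    rw [Subgroup.map_eq_bot_iff, QuotientGroup.ker_mk'] at h1
    exact (T.3 hS.comap_subtype h1).symm
  refine hyp H (fun T => by rw [hT T]; exact hS'n) fun T _ => ?_
  exact isCyclic_of_surjective (QuotientGroup.quotientMulEquivOfEq (hT T)).symm
    (MulEquiv.surjective _)

end Cfsg.Agent.PByCyclic
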